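import Cfsg.Agent.Lib.GLTwoThree.Main
import Cfsg.Agent.Lib.GLTwoThree.ThreeLocal
import Cfsg.Agent.Lib.SmallSimple.Order459648
import Cfsg.Agent.Lib.Perm.CharMult

/-!
# Groups of order 5616 and elements of order thirteen
-/

set_option autoImplicit false
set_option linter.unusedSectionVars false
set_option linter.style.haveILetI false
set_option synthInstance.maxSize 1024

namespace Cfsg.Agent.Lib.GLTwoThree

open Cfsg Subgroup

universe u

variable {G : Type u} [Group G] [Finite G]

theorem centralizer_zpowers (x : G) :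
    centralizer ((zpowers x : Subgroup G) : Set G) = centralizer ({x} : Set G) := by
  ext g
  rw [mem_centralizer_singleton_iff, mem_centralizer_iff]
  refine ⟨fun h => (h x (mem_zpowers x)).symm, ?_⟩
  rintro h _ ⟨j, rfl⟩
  exact ((show Commute g x from h).zpow_right j).eq.symm

theorem card_sylow_thirteen (hG : Nat.card G = 5616) [Fact (Nat.Prime 13)] (P : Sylow 13 G) :
    Nat.card (P : Subgroup G) = 13 :=
  (SmallSimple.card_sylow_subgroup P (k := 1) (m := 432) (by rw [hG]; norm_num) (by norm_num)).trans (pow_one _)

theorem sylow_thirteen_dvd (hG : Nat.card G = 5616) [Fact (Nat.Prime 13)] :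
    Nat.card (Sylow 13 G) ∣ 432 := by
  obtain ⟨P⟩ : Nonempty (Sylow 13 G) := inferInstance
  have h := P.card_dvd_index
  have hi := (P : Subgroup G).card_mul_index
  rw [card_sylow_thirteen hG P, hG] at hi
  rwa [show (P : Subgroup G).index = 432 by omega] at h

theorem thirteen_key : ∀ k ∈ Nat.divisors 432, k % 13 = 1 → k = 1 ∨ k = 27 ∨ k = 144 := by decide +kernel

/-- A simple group of order 5616 with such an involution centraliser has a self-centralising element of order
thirteen. -/
theorem exists_thirteen [IsSimpleGroup G] {t : G} (ht : orderOf t = 2)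
    (e : centralizer ({t} : Set G) ≃* GL23) (hG : Nat.card G = 5616) :
    ∃ x : G, Nat.card (centralizer ({x} : Set G)) = 13 := by
  haveI : Fact (Nat.Prime 13) := ⟨by norm_num⟩
  haveI : Fact (Nat.Prime 2) := ⟨Nat.prime_two⟩
  obtain ⟨x, hx⟩ := exists_prime_orderOf_dvd_card' (G := G) 13 (by rw [hG]; norm_num)
  obtain ⟨P, hP⟩ := (IsPGroup.of_card (n := 1) (by rw [Nat.card_zpowers, hx, pow_one]) :
    IsPGroup 13 (zpowers x)).exists_le_sylow
  have hPx : zpowers x = (P : Subgroup G) :=
    eq_of_le_of_card_ge hP (by rw [card_sylow_thirteen hG P, Nat.card_zpowers, hx])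
  set C := centralizer ({x} : Set G) with hC
  have hodd : ¬ 2 ∣ Nat.card C := by
    intro h2
    obtain ⟨s, hs⟩ := exists_prime_orderOf_dvd_card' (G := C) 2 h2
    rw [← Subgroup.orderOf_coe] at hs
    obtain ⟨f⟩ := nonempty_iso ht e (t_mul_t hs) (t_ne_one hs)
    have hd := orderOf_dvd_natCard (⟨x, mem_centralizer_singleton_iff.2
      (mem_centralizer_singleton_iff.1 s.2).symm⟩ : centralizer ({(s : G)} : Set G))
    rw [orderOf_mk, hx, Nat.card_congr f.toEquiv, card_gl] at hd
    norm_num at hd
  have h13 : 13 ∣ Nat.card C := by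
    have := orderOf_dvd_natCard (⟨x, mem_centralizer_singleton_iff.2 rfl⟩ : C)
    rwa [orderOf_mk, hx] at this
  obtain ⟨i, hi, hNC⟩ := SmallSimple.exists_normalizer_index (p := 13) (P : Subgroup G) (card_sylow_thirteen hG P)
  have hPC : centralizer ((P : Subgroup G) : Set G) = C := by rw [← hPx, centralizer_zpowers]
  rw [hPC] at hNC
  have hnc := nc ht e hG
  obtain ⟨h1, h2, -⟩ := SmallSimple.card_sylow_facts (p := 13) hnc (by rw [hG]; norm_num)
  have hmul := (normalizer ((P : Subgroup G) : Set G)).card_mul_index
  rw [← SmallSimple.card_sylow_eq_index P, hG] at hmul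
  refine ⟨x, ?_⟩
  rcases thirteen_key _ (Nat.mem_divisors.2 ⟨sylow_thirteen_dvd hG, by norm_num⟩) h2 with hk | hk | hk
  · omega
  · rw [hk] at hmul
    have hN : Nat.card (normalizer ((P : Subgroup G) : Set G)) = 208 := by omega
    rw [hN] at hNC
    have hd : Nat.card C ∈ Nat.divisors 208 := Nat.mem_divisors.2 ⟨Dvd.intro i hNC.symm, by norm_num⟩
    have key : ∀ k ∈ Nat.divisors 208, ¬ 2 ∣ k → 13 ∣ k → k = 13 := by decide +kernel
    exact key _ hd hodd h13
  · rw [hk] at hmul
    have hN : Nat.card (normalizer ((P : Subgroup G) : Set G)) = 39 := by omega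
    rw [hN] at hNC
    have hd : Nat.card C ∈ Nat.divisors 39 := Nat.mem_divisors.2 ⟨Dvd.intro i hNC.symm, by norm_num⟩
    have key : ∀ k ∈ Nat.divisors 39, 13 ∣ k → k = 13 ∨ k = 39 := by decide +kernel
    refine (key _ hd h13).resolve_right fun h39 => ?_
    refine SmallSimple.not_normalizer_le_centralizer hnc P (by rw [hG]; norm_num) ?_
    rw [hPC]
    exact (eq_of_le_of_card_ge (hPC ▸ centralizer_le_normalizer _) (by rw [hN, h39])).ge

theorem card_sylow_le_of_normal [Fact (Nat.Prime 13)] (M : Subgroup G) [hM : M.Normal] (P : Sylow 13 G)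
    (hP : (P : Subgroup G) ≤ M) : Nat.card (Sylow 13 G) ≤ Nat.card (Sylow 13 M) := by
  have hall : ∀ Q : Sylow 13 G, (Q : Subgroup G) ≤ M := by
    intro Q
    obtain ⟨g, rfl⟩ := MulAction.exists_smul_eq G P Q
    intro a ha
    rw [Sylow.coe_subgroup_smul] at ha
    obtain ⟨b, hb, rfl⟩ := ha
    exact hM.conj_mem b (hP hb) g
  refine Nat.card_le_card_of_injective (fun Q => Q.subtype (hall Q)) fun Q R h => ?_
  exact Sylow.subtype_injective h

/-- A group of order 5616 with a self-centralising element of order thirteen is simple. -/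
theorem isSimpleGroup_of_thirteen (hG : Nat.card G = 5616) {x : G}
    (hx : Nat.card (centralizer ({x} : Set G)) = 13) : IsSimpleGroup G := by
  classical
  haveI : Fact (Nat.Prime 13) := ⟨by norm_num⟩
  haveI : Fact (Nat.Prime 3) := ⟨Nat.prime_three⟩
  have hx1 : x ≠ 1 := by
    rintro rfl
    rw [centralizer_eq_top_iff_subset.2 (by simp), card_top, hG] at hx
    norm_num at hx
  have hox : orderOf x = 13 := by
    have hd := orderOf_dvd_natCard (⟨x, mem_centralizer_singleton_iff.2 rfl⟩ : centralizer ({x} : Set G))
    rw [orderOf_mk, hx] at hd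
    exact ((Nat.dvd_prime (by norm_num)).1 hd).resolve_left fun h => hx1 (orderOf_eq_one_iff.1 h)
  obtain ⟨P, hP⟩ := (IsPGroup.of_card (n := 1) (by rw [Nat.card_zpowers, hox, pow_one]) :
    IsPGroup 13 (zpowers x)).exists_le_sylow
  have hPx : zpowers x = (P : Subgroup G) :=
    eq_of_le_of_card_ge hP (by rw [card_sylow_thirteen hG P, Nat.card_zpowers, hox])
  have hxP : x ∈ (P : Subgroup G) := hPx ▸ mem_zpowers x
  obtain ⟨i, hi, hNC⟩ := SmallSimple.exists_normalizer_index (p := 13) (P : Subgroup G) (card_sylow_thirteen hG P)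
  rw [← hPx, centralizer_zpowers, hx, hPx] at hNC
  have hmul := (normalizer ((P : Subgroup G) : Set G)).card_mul_index
  rw [← SmallSimple.card_sylow_eq_index P, hG, hNC] at hmul
  have hn144 : Nat.card (Sylow 13 G) = 144 := by
    have hle : i ≤ 12 := Nat.le_of_dvd (by norm_num) hi
    have hmod : Nat.card (Sylow 13 G) % 13 = 1 := card_sylow_modEq_one 13 G
    rcases thirteen_key _ (Nat.mem_divisors.2 ⟨sylow_thirteen_dvd hG, by norm_num⟩) hmod with hk | hk | hk
    · rw [hk] at hmul; omega
    · rw [hk] at hmul; omega
    · exact hk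
  haveI : Nontrivial G := ⟨⟨x, 1, hx1⟩⟩
  -- normal subgroups of order prime to thirteen are trivial
  have small : ∀ N : Subgroup G, N.Normal → ¬ 13 ∣ Nat.card N → N = ⊥ := by
    intro N hN h13
    haveI := hN
    by_contra hb
    have hd : Nat.card N ∣ 432 := by
      have h := hG ▸ card_subgroup_dvd_card N
      have hc : Nat.Coprime (Nat.card N) 13 := ((by norm_num : Nat.Prime 13).coprime_iff_not_dvd.2 h13).symm
      exact hc.dvd_of_dvd_mul_right (show Nat.card N ∣ 432 * 13 by simpa using h)
    have hfree : ∀ n ∈ N, x * n = n * x → n = 1 := by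
      intro n hn h
      by_contra hn1
      have hnC : n ∈ centralizer ({x} : Set G) := mem_centralizer_singleton_iff.2 h.symm
      have h13' := orderOf_dvd_natCard (⟨n, hnC⟩ : centralizer ({x} : Set G))
      rw [orderOf_mk, hx] at h13'
      have := ((Nat.dvd_prime (by norm_num)).1 h13').resolve_left fun h => hn1 (orderOf_eq_one_iff.1 h)
      exact h13 (this ▸ N.orderOf_dvd_natCard hn)
    let _ : MulAction (P : Subgroup G) N := MulAction.compHom N ((MulAut.conjNormal (H := N)).comp (P : Subgroup G).subtype)
    have hfix : MulAction.fixedPoints (P : Subgroup G) N = {1} := by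
      ext n
      constructor
      · intro hn
        have h : x * (n : G) * x⁻¹ = n :=
          (MulAut.conjNormal_apply x n).symm.trans (congrArg Subtype.val (hn ⟨x, hxP⟩))
        exact Subtype.ext (hfree n n.2 (mul_inv_eq_iff_eq_mul.1 h))
      · rintro rfl p
        show MulAut.conjNormal (p : G) (1 : N) = 1
        exact map_one _
    have hmod := P.isPGroup'.card_modEq_card_fixedPoints N
    rw [hfix] at hmod
    have hmod' : Nat.card N % 13 = 1 := by simpa [Nat.ModEq] using hmod
    rcases thirteen_key _ (Nat.mem_divisors.2 ⟨hd, by norm_num⟩) hmod' with hk | hk | hk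
    · exact hb (eq_bot_of_card_eq _ hk)
    · -- order 27
      set M := ((P : Subgroup G).map (QuotientGroup.mk' N)).comap (QuotientGroup.mk' N) with hM
      have hq : Nat.card (G ⧸ N) = 208 := by
        have := Subgroup.card_eq_card_quotient_mul_card_subgroup N
        rw [hG, hk] at this
        omega
      obtain ⟨Pq⟩ : Nonempty (Sylow 13 (G ⧸ N)) := inferInstance
      have h1 : Nat.card (Sylow 13 (G ⧸ N)) = 1 := by
        have hc : Nat.card (Pq : Subgroup (G ⧸ N)) = 13 :=
          (SmallSimple.card_sylow_subgroup Pq (k := 1) (m := 16) (by rw [hq]; norm_num) (by norm_num)).trans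
            (pow_one _)
        have h := Pq.card_dvd_index
        have hi' := (Pq : Subgroup (G ⧸ N)).card_mul_index
        rw [hc, hq] at hi'
        rw [show (Pq : Subgroup (G ⧸ N)).index = 16 by omega] at h
        have hm : Nat.card (Sylow 13 (G ⧸ N)) % 13 = 1 := card_sylow_modEq_one 13 (G ⧸ N)
        have key : ∀ k ∈ Nat.divisors 16, k % 13 = 1 → k = 1 := by decide +kernel
        exact key _ (Nat.mem_divisors.2 ⟨h, by norm_num⟩) hm
      haveI := (Nat.card_eq_one_iff_unique.1 h1).1
      haveI hMn : M.Normal := by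
        have hPi : (P : Subgroup G).map (QuotientGroup.mk' N) =
            ((P.mapSurjective (QuotientGroup.mk'_surjective N) : Sylow 13 (G ⧸ N)) : Subgroup (G ⧸ N)) := rfl
        rw [hM, hPi]
        haveI := Sylow.normal_of_subsingleton (P.mapSurjective (QuotientGroup.mk'_surjective N))
        infer_instance
      have hMc : Nat.card M ∣ 351 := by
        have hsurj := QuotientGroup.mk'_surjective N
        have h := Subgroup.index_comap_of_surjective ((P : Subgroup G).map (QuotientGroup.mk' N)) hsurj
        have h' := M.card_mul_index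
        rw [hM, h] at h'
        rw [← hM] at h'
        have h'' := ((P : Subgroup G).map (QuotientGroup.mk' N)).card_mul_index
        have hd13 : Nat.card ((P : Subgroup G).map (QuotientGroup.mk' N)) ∣ 13 := by
          exact (Subgroup.card_map_dvd _ _).trans (dvd_of_eq (card_sylow_thirteen hG P))
        rcases (Nat.dvd_prime (by norm_num)).1 hd13 with hd' | hd' <;> rw [hd', hq] at h''
        · rw [show ((P : Subgroup G).map (QuotientGroup.mk' N)).index = 208 by omega, hG] at h'
          exact ⟨13, by omega⟩
        · rw [show ((P : Subgroup G).map (QuotientGroup.mk' N)).index = 16 by omega, hG] at h'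
          exact ⟨1, by omega⟩
      have hle : (P : Subgroup G) ≤ M := le_comap_map _ _
      have hc := card_sylow_le_of_normal M P hle
      rw [hn144] at hc
      obtain ⟨Q⟩ : Nonempty (Sylow 13 M) := inferInstance
      have h2 := Q.card_dvd_index
      have h3 := (Q : Subgroup M).card_mul_index
      have h13M : 13 ∣ Nat.card M := card_sylow_thirteen hG P ▸ card_dvd_of_le hle
      have hQ13 : 13 ∣ Nat.card (Q : Subgroup M) := Q.dvd_card_of_dvd_card h13M
      have hQle : Nat.card (Sylow 13 M) * 13 ≤ Nat.card M := by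
        rw [← h3, mul_comm]
        exact Nat.mul_le_mul (Nat.le_of_dvd Nat.card_pos hQ13)
          (Nat.le_of_dvd (Nat.pos_of_ne_zero index_ne_zero_of_finite) h2)
      have := Nat.le_of_dvd (by norm_num) hMc
      omega
    · -- order 144
      have hfix3 : ∃ R : Sylow 3 N, ∀ p : (P : Subgroup G), ∀ n ∈ (R : Subgroup N), p • n ∈ (R : Subgroup N) := by
        let φ : (P : Subgroup G) →* MulAut N := (MulAut.conjNormal (H := N)).comp (P : Subgroup G).subtype
        let _ : MulAction (P : Subgroup G) (Sylow 3 N) := MulAction.compHom _ φ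
        obtain ⟨R0⟩ : Nonempty (Sylow 3 N) := inferInstance
        have hc : Nat.card (R0 : Subgroup N) = 9 :=
          (SmallSimple.card_sylow_subgroup R0 (k := 2) (m := 16) (by rw [hk]; norm_num) (by norm_num)).trans
            (by norm_num)
        have h := R0.card_dvd_index
        have hi' := (R0 : Subgroup N).card_mul_index
        rw [hc, hk] at hi'
        rw [show (R0 : Subgroup N).index = 16 by omega] at h
        have hm : Nat.card (Sylow 3 N) % 3 = 1 := card_sylow_modEq_one 3 N
        have key : ∀ k ∈ Nat.divisors 16, k % 3 = 1 → ¬ 13 ∣ k := by decide +kernel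
        obtain ⟨R, hR⟩ := P.isPGroup'.nonempty_fixed_point_of_prime_not_dvd_card (Sylow 3 N)
          (key _ (Nat.mem_divisors.2 ⟨h, by norm_num⟩) hm)
        refine ⟨R, fun p n hn => ?_⟩
        have hRp : φ p • R = R := hR p
        have h' : p • n ∈ ((φ p • R : Sylow 3 N) : Subgroup N) :=
          Subgroup.smul_mem_pointwise_smul n (φ p) (R : Subgroup N) hn
        rwa [hRp] at h'
      obtain ⟨R, hR⟩ := hfix3
      let _ : MulAction (P : Subgroup G) (R : Subgroup N) :=
        { smul := fun p n => ⟨p • (n : N), hR p n n.2⟩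
          one_smul := fun n => Subtype.ext (one_smul _ (n : N))
          mul_smul := fun p q n => Subtype.ext (mul_smul p q (n : N)) }
      have hfixR : MulAction.fixedPoints (P : Subgroup G) (R : Subgroup N) = {1} := by
        ext n
        constructor
        · intro hn
          have : (n : N) ∈ MulAction.fixedPoints (P : Subgroup G) N := fun p => congrArg Subtype.val (hn p)
          rw [hfix, Set.mem_singleton_iff] at this
          exact Subtype.ext this
        · rintro rfl p
          exact Subtype.ext (map_one (MulAut.conjNormal (H := N) (p : G)))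
      have hmodR := P.isPGroup'.card_modEq_card_fixedPoints (R : Subgroup N)
      rw [hfixR] at hmodR
      have hc : Nat.card (R : Subgroup N) = 9 :=
        (SmallSimple.card_sylow_subgroup R (k := 2) (m := 16) (by rw [hk]; norm_num) (by norm_num)).trans
          (by norm_num)
      simp [Nat.ModEq, hc] at hmodR
  constructor
  intro N hN
  haveI := hN
  by_cases h13 : 13 ∣ Nat.card N
  swap
  · exact Or.inl (small N hN h13)
  right
  have hPN : (P : Subgroup G) ≤ N := by
    obtain ⟨y, hy⟩ := exists_prime_orderOf_dvd_card' (G := N) 13 h13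
    rw [← Subgroup.orderOf_coe] at hy
    obtain ⟨Q, hQ⟩ := (IsPGroup.of_card (n := 1) (by rw [Nat.card_zpowers, hy, pow_one]) :
      IsPGroup 13 (zpowers (y : G))).exists_le_sylow
    have hQy : zpowers (y : G) = (Q : Subgroup G) :=
      eq_of_le_of_card_ge hQ (by rw [card_sylow_thirteen hG Q, Nat.card_zpowers, hy])
    obtain ⟨g, hg⟩ := MulAction.exists_smul_eq G Q P
    intro a ha
    rw [← hg, Sylow.coe_subgroup_smul] at ha
    obtain ⟨b, hb, rfl⟩ := ha
    have hb' : b ∈ zpowers (y : G) := hQy ▸ hb
    exact hN.conj_mem b (zpowers_le.2 y.2 hb') g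
  have hfr := Sylow.normalizer_sup_eq_top (P.subtype hPN)
  rw [Sylow.coe_subtype, Subgroup.subgroupOf_map_subtype, inf_eq_left.2 hPN] at hfr
  by_contra hne
  -- the index is three
  set D := normalizer ((P : Subgroup G) : Set G) with hD
  have hD39 : Nat.card D = 39 := by
    rw [hNC]
    rw [hn144] at hmul
    omega
  have hidx : N.index ∣ 3 := by
    have h1 : N.relIndex D = N.index := by
      rw [← relIndex_sup_right (H := D) (K := N), hfr, relIndex_top_right]
    have h2 : 13 ∣ Nat.card (N.subgroupOf D) := by
      have := card_dvd_of_le (show (P : Subgroup G).subgroupOf D ≤ N.subgroupOf D from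
        fun a ha => hPN ha)
      rwa [Nat.card_congr (subgroupOfEquivOfLe le_normalizer).toEquiv, card_sylow_thirteen hG P] at this
    have h3 := (N.subgroupOf D).card_mul_index
    rw [hD39] at h3
    obtain ⟨m, hm⟩ := h2
    rw [hm, show (N.subgroupOf D).index = N.index from h1] at h3
    exact Dvd.intro_left m (by linarith)
  have hidx3 : N.index = 3 :=
    ((Nat.dvd_prime Nat.prime_three).1 hidx).resolve_left fun h => hne (index_eq_one.1 h)
  have hN' : Nat.card N = 1872 := by
    have := N.card_mul_index
    rw [hidx3, hG] at this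
    omega
  set Q := P.subtype hPN with hQ
  have hQc : Nat.card (Q : Subgroup N) = 13 := by
    rw [hQ, Sylow.coe_subtype, Nat.card_congr (subgroupOfEquivOfLe hPN).toEquiv, card_sylow_thirteen hG P]
  have hQi : (Q : Subgroup N).index = 144 := by
    have := (Q : Subgroup N).card_mul_index
    rw [hQc, hN'] at this
    omega
  have hQN : normalizer ((Q : Subgroup N) : Set N) = (Q : Subgroup N) := by
    refine (eq_of_le_of_card_ge le_normalizer ?_).symm
    have h1 := (normalizer ((Q : Subgroup N) : Set N)).card_mul_index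
    rw [← SmallSimple.card_sylow_eq_index Q, hN'] at h1
    have h2 := card_sylow_le_of_normal N P hPN
    rw [hn144] at h2
    rw [hQc]
    nlinarith
  have hle : normalizer ((Q : Subgroup N) : Set N) ≤ centralizer ((Q : Subgroup N) : Set N) := by
    rw [hQN]
    haveI : IsCyclic (Q : Subgroup N) := isCyclic_of_prime_card hQc
    exact le_centralizer _
  have hcompl := MonoidHom.ker_transferSylow_isComplement' Q hle
  set τ := MonoidHom.transferSylow Q hle
  have hker : Nat.card τ.ker = 144 := by
    have := hcompl.card_mul_card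
    rw [hQc, hN'] at this
    omega
  have hmem : ∀ n : N, n ∈ τ.ker ↔ ¬ 13 ∣ orderOf n := by
    intro n
    constructor
    · intro hn h
      have h' : orderOf (⟨n, hn⟩ : τ.ker) ∣ 144 := hker ▸ orderOf_dvd_natCard _
      rw [orderOf_mk] at h'
      exact absurd (h.trans h') (by norm_num)
    · intro h
      rw [MonoidHom.mem_ker]
      refine orderOf_eq_one_iff.1 (Nat.eq_one_of_dvd_coprimes (a := orderOf n) (b := 13) ?_ (orderOf_map_dvd τ n) ?_)
      · exact ((by norm_num : Nat.Prime 13).coprime_iff_not_dvd.2 h).symm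
      · exact (orderOf_dvd_natCard (τ n)).trans (dvd_of_eq hQc)
  haveI : (τ.ker.map N.subtype).Normal := ⟨by
    rintro _ ⟨n, hn, rfl⟩ g
    refine ⟨MulAut.conjNormal g n, ?_, MulAut.conjNormal_apply g n⟩
    rw [SetLike.mem_coe, hmem, MulEquiv.orderOf_eq, ← hmem]
    exact hn⟩
  have hbot := small (τ.ker.map N.subtype) inferInstance (by
    rw [card_map_of_injective N.subtype_injective, hker]; norm_num)
  have := congrArg (fun K : Subgroup G => Nat.card K) hbot
  simp only [card_map_of_injective N.subtype_injective, hker, card_bot] at this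
  norm_num at this

end Cfsg.Agent.Lib.GLTwoThree
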