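import Cfsg.Agent.Lib.GLTwoThree.PSLThree
import Cfsg.Agent.Lib.GLTwoThree.Thirteen
import Cfsg.Agent.Lib.BinOct.Core
import Cfsg.Agent.Lib.Char.Burnside
import Cfsg.Agent.Lib.Involution.QuaternionChars

/-!
# The commuting graph determines the projective special linear group of degree three over three elements
-/

set_option autoImplicit false
set_option linter.unusedSectionVars false
set_option linter.style.haveILetI false
set_option synthInstance.maxSize 1024

namespace Cfsg.Agent.Lib.GLTwoThree

open Cfsg Subgroup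

universe u

theorem gl_noncentral : ∀ v : Quad, qdet v ≠ 0 → v ≠ qone → v ≠ qneg → cntC v ≤ 8 := by decide +kernel

theorem gl_eights : (Finset.univ.filter fun v : Inv4 => cntC v.1 = 8).card = 18 := by decide +kernel

theorem gl_center : ∀ v : Quad, qdet v ≠ 0 → (v = qone ∨ v = qneg ↔ cntC v = 48) := by decide +kernel

section Kgroup

variable {K : Type u} [Group K] [Finite K] (ξ : K ≃ GL23)
  (hξ : ∀ a b : K, a * b = b * a ↔ ξ a * ξ b = ξ b * ξ a) (hξ1 : ξ 1 = 1)

include ξ in
theorem card_k : Nat.card K = 48 := by rw [Nat.card_congr ξ, card_gl]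

include hξ in
theorem card_cent_k (a : K) : Nat.card (centralizer ({a} : Set K)) = cntC (toQuad (ξ a)) := by
  rw [cntC, ← natCard_gl (fun w => qmul w (toQuad (ξ a)) = qmul (toQuad (ξ a)) w)]
  refine Nat.card_congr (Equiv.subtypeEquiv ξ fun b => ?_)
  rw [mem_centralizer_singleton_iff, hξ, ← toQuad_mul, ← toQuad_mul, toQuad_injective.eq_iff]

include hξ hξ1 in
theorem exists_central : ∃ d : K, d ≠ 1 ∧ d * d = 1 ∧ (∀ g, g * d = d * g) ∧
    ∀ a : K, a ≠ 1 → a ≠ d → Nat.card (centralizer ({a} : Set K)) ≤ 8 := by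
  set d := ξ.symm zz with hd
  have hd1 : d ≠ 1 := fun h => zz_ne_one (by rw [← ξ.apply_symm_apply zz, ← hd, h, hξ1])
  have hc : ∀ g, g * d = d * g := fun g => (hξ _ _).2 (by rw [hd, ξ.apply_symm_apply]; exact zz_comm _)
  have huniq : ∀ a : K, a ≠ 1 → a ≠ d → Nat.card (centralizer ({a} : Set K)) ≤ 8 := by
    intro a ha1 had
    rw [card_cent_k ξ hξ a]
    refine gl_noncentral _ (qdet_toQuad _) (fun h => ha1 ?_) (fun h => had ?_)
    · apply ξ.injective
      rw [hξ1]
      exact toQuad_eq_one.2 h
    · apply ξ.injective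
      rw [hd, ξ.apply_symm_apply]
      exact toQuad_injective (h.trans toQuad_zz.symm)
  refine ⟨d, hd1, ?_, hc, huniq⟩
  by_contra hdd
  by_cases h1 : d⁻¹ = d
  · exact hdd (by nth_rw 2 [← h1]; exact mul_inv_cancel d)
  have h2 := huniq d⁻¹ (inv_ne_one.2 hd1) h1
  have hall : centralizer ({d⁻¹} : Set K) = ⊤ :=
    eq_top_iff.2 fun g _ => mem_centralizer_singleton_iff.2 ((show Commute g d from hc g).inv_right).eq
  rw [hall, card_top, card_k ξ] at h2
  norm_num at h2

include hξ in
theorem card_eights : Nat.card {a : K // Nat.card (centralizer ({a} : Set K)) = 8} = 18 := by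
  rw [← gl_eights, ← natCard_gl (fun w => cntC w = 8)]
  exact Nat.card_congr (Equiv.subtypeEquiv ξ fun b => by rw [card_cent_k ξ hξ])

theorem card_orbit (a : K) :
    Nat.card {z : K // ∃ n ∈ (⊤ : Subgroup K), n * a * n⁻¹ = z} * Nat.card (centralizer ({a} : Set K)) = Nat.card K := by
  have h := card_conjSet (⊤ : Subgroup K) a
  rwa [top_inf_eq, card_top] at h

theorem orbit_subset_normal {M : Subgroup K} [hM : M.Normal] {a : K} (ha : a ∈ M) (bad : Finset K)
    (hbad : ∀ b ∈ bad, ∀ g : K, g * b * g⁻¹ = b) (hnb : a ∉ bad) (hsub : ∀ b ∈ bad, b ∈ M) :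
    Nat.card {z : K // ∃ n ∈ (⊤ : Subgroup K), n * a * n⁻¹ = z} + bad.card ≤ Nat.card M := by
  classical
  haveI := Fintype.ofFinite K
  have hT : ∀ z, z ∈ (Finset.univ.filter fun z => ∃ n ∈ (⊤ : Subgroup K), n * a * n⁻¹ = z) ↔
      ∃ n ∈ (⊤ : Subgroup K), n * a * n⁻¹ = z := fun z => by simp
  rw [Nat.card_eq_fintype_card, Fintype.card_of_subtype _ hT, ← Finset.card_union_of_disjoint]
  · rw [Nat.card_eq_fintype_card, Fintype.card_of_subtype (Finset.univ.filter fun z : K => z ∈ M)
      (fun z => by simp)]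
    refine Finset.card_le_card fun z hz => ?_
    simp only [Finset.mem_union, Finset.mem_filter, Finset.mem_univ, true_and] at hz ⊢
    rcases hz with ⟨n, -, rfl⟩ | hz
    · exact hM.conj_mem a ha n
    · exact hsub z hz
  · refine Finset.disjoint_left.2 fun z hz hz' => hnb ?_
    obtain ⟨n, -, he⟩ := (hT z).1 hz
    have hza : z = a := by
      calc z = n⁻¹ * z * n⁻¹⁻¹ := (hbad z hz' n⁻¹).symm
        _ = a := by rw [← he]; group
    exact hza ▸ hz'

include hξ hξ1 in
theorem not_normal_sylow (P : Sylow 2 K) : ¬ (P : Subgroup K).Normal := by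
  classical
  intro hN
  haveI : Fact (Nat.Prime 2) := ⟨Nat.prime_two⟩
  haveI : Fact (Nat.Prime 3) := ⟨Nat.prime_three⟩
  obtain ⟨d, hd1, hdd, hdc, huniq⟩ := exists_central ξ hξ hξ1
  have hP : Nat.card (P : Subgroup K) = 16 :=
    (SmallSimple.card_sylow_subgroup P (k := 4) (m := 3) (by rw [card_k ξ]; norm_num) (by norm_num)).trans
      (by norm_num)
  have hd2 : orderOf d = 2 := orderOf_eq_prime (by rw [sq, hdd]) hd1
  have hdP : d ∈ (P : Subgroup K) := by
    obtain ⟨Q, hQ⟩ := (IsPGroup.of_card (n := 1) (by rw [Nat.card_zpowers, hd2, pow_one]) :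
      IsPGroup 2 (zpowers d)).exists_le_sylow
    haveI := hN
    haveI := (Sylow.unique_of_normal P hN).instSubsingleton
    rw [Subsingleton.elim Q P] at hQ
    exact hQ (mem_zpowers d)
  obtain ⟨a, ha⟩ := exists_prime_orderOf_dvd_card' (G := K) 3 (by rw [card_k ξ]; norm_num)
  have ha1 : a ≠ 1 := fun h => by rw [h, orderOf_one] at ha; norm_num at ha
  have had : a ≠ d := fun h => by rw [h, hd2] at ha; norm_num at ha
  have h8 := huniq a ha1 had
  set C := centralizer ({a} : Set K) with hC
  -- the action on the cosets of the central involution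
  have haC : a ∈ C := mem_centralizer_singleton_iff.2 rfl
  have hdC : d ∈ C := mem_centralizer_singleton_iff.2 (hdc a).symm
  have hmem : ∀ s ∈ (P : Subgroup K), a * s * a⁻¹ ∈ (P : Subgroup K) := fun s hs => hN.conj_mem s hs a
  haveI := hN
  let _ : MulAction (zpowers a) ((P : Subgroup K) ⧸ (zpowers d).subgroupOf (P : Subgroup K)) :=
    { smul := fun g q => Quotient.map' (fun s => MulAut.conjNormal (g : K) s) (fun s s' h => by
        rw [QuotientGroup.leftRel_apply, mem_subgroupOf] at h ⊢
        obtain ⟨j, hj⟩ := h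
        refine ⟨j, ?_⟩
        simp only [Subgroup.coe_mul, Subgroup.coe_inv, MulAut.conjNormal_apply] at hj ⊢
        calc d ^ j = (g : K) * d ^ j * (g : K)⁻¹ := by
              rw [((show Commute (g : K) d from hdc g).zpow_right j).eq, mul_inv_cancel_right]
          _ = _ := by
              rw [show d ^ j = (s : K)⁻¹ * (s' : K) from hj]
              group) q
      one_smul := fun q => by
        induction q using QuotientGroup.induction_on with
        | H s => exact congrArg QuotientGroup.mk (Subtype.ext (by simp))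
      mul_smul := fun g g' q => by
        induction q using QuotientGroup.induction_on with
        | H s => exact congrArg QuotientGroup.mk (Subtype.ext (by simp [mul_assoc])) }
  have hcard : Nat.card ((P : Subgroup K) ⧸ (zpowers d).subgroupOf (P : Subgroup K)) = 8 := by
    have h := Subgroup.card_eq_card_quotient_mul_card_subgroup ((zpowers d).subgroupOf (P : Subgroup K))
    rw [Nat.card_congr (subgroupOfEquivOfLe (zpowers_le.2 hdP)).toEquiv, Nat.card_zpowers, hd2, hP] at h
    omega
  have hz3 : IsPGroup 3 (zpowers a) := IsPGroup.of_card (n := 1) (by rw [Nat.card_zpowers, ha, pow_one])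
  have hone : (QuotientGroup.mk 1 : (P : Subgroup K) ⧸ (zpowers d).subgroupOf (P : Subgroup K)) ∈
      MulAction.fixedPoints (zpowers a) _ := fun g => congrArg QuotientGroup.mk (map_one _)
  obtain ⟨q, hq, hq1⟩ : ∃ q ∈ MulAction.fixedPoints (zpowers a) ((P : Subgroup K) ⧸ (zpowers d).subgroupOf
      (P : Subgroup K)), QuotientGroup.mk 1 ≠ q := by
    by_contra hnone
    push Not at hnone
    have hset : MulAction.fixedPoints (zpowers a) ((P : Subgroup K) ⧸ (zpowers d).subgroupOf (P : Subgroup K)) =
        {QuotientGroup.mk 1} := Set.eq_singleton_iff_unique_mem.2 ⟨hone, fun q hq => (hnone q hq).symm⟩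
    have hm := hz3.card_modEq_card_fixedPoints ((P : Subgroup K) ⧸ (zpowers d).subgroupOf (P : Subgroup K))
    rw [hset, hcard] at hm
    simp [Nat.ModEq] at hm
  obtain ⟨s, rfl⟩ := QuotientGroup.mk_surjective q
  have hfix := QuotientGroup.eq.1 (hq ⟨a, mem_zpowers a⟩)
  rw [mem_subgroupOf] at hfix
  simp only [Subgroup.coe_mul, Subgroup.coe_inv, MulAut.conjNormal_apply] at hfix
  -- the coset has a fixed representative
  have hdcases : ∀ z ∈ zpowers d, z = 1 ∨ z = d := by
    intro z hz
    obtain ⟨j, hj, rfl⟩ := (mem_zpowers_iff_mem_range_orderOf).1 hz |> Finset.mem_image.1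
    rw [hd2, Finset.mem_range] at hj
    interval_cases j
    · exact Or.inl (pow_zero d)
    · exact Or.inr (pow_one d)
  have hsC : (s : K) ∈ C := by
    rw [hC, mem_centralizer_singleton_iff]
    rcases hdcases _ hfix with h | h
    · have h' : (s : K) = a * (s : K) * a⁻¹ := by
        calc (s : K) = (a * (s : K) * a⁻¹) * ((a * (s : K) * a⁻¹)⁻¹ * (s : K)) := by group
          _ = _ := by rw [h, mul_one]
      calc (s : K) * a = a * (s : K) * a⁻¹ * a := by rw [← h']
        _ = a * (s : K) := by group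
    · exfalso
      have e1 : a * (s : K) * a⁻¹ = (s : K) * d := by
        calc a * (s : K) * a⁻¹ = (a * (s : K) * a⁻¹) * ((a * (s : K) * a⁻¹)⁻¹ * (s : K)) * d := by
              rw [h, mul_assoc _ d d, hdd, mul_one]
          _ = (s : K) * d := by group
      have e2 : a * d * a⁻¹ = d := by rw [hdc a, mul_inv_cancel_right]
      have a3 : a ^ 3 = 1 := by rw [← ha, pow_orderOf_eq_one]
      have e3 : a ^ 3 * (s : K) * (a ^ 3)⁻¹ = (s : K) * d := by
        calc a ^ 3 * (s : K) * (a ^ 3)⁻¹ = a * (a * (a * (s : K) * a⁻¹) * a⁻¹) * a⁻¹ := by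
              rw [pow_three]; group
          _ = a * (a * ((s : K) * d) * a⁻¹) * a⁻¹ := by rw [e1]
          _ = a * (a * (s : K) * a⁻¹ * (a * d * a⁻¹)) * a⁻¹ := by group
          _ = a * ((s : K) * d * d) * a⁻¹ := by rw [e1, e2]
          _ = a * (s : K) * a⁻¹ := by rw [mul_assoc (s : K), hdd, mul_one]
          _ = (s : K) * d := e1
      rw [a3, one_mul, inv_one, mul_one] at e3
      exact hd1 (left_eq_mul.1 e3)
  have hsne : (s : K) ≠ 1 ∧ (s : K) ≠ d := by
    refine ⟨fun h => hq1 (QuotientGroup.eq.2 ?_), fun h => hq1 (QuotientGroup.eq.2 ?_)⟩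
    · rw [mem_subgroupOf]; simp [h]
    · rw [mem_subgroupOf]; simp [h]
  have h3 : 3 ≤ Nat.card (C ⊓ (P : Subgroup K) : Subgroup K) := by
    classical
    haveI := Fintype.ofFinite K
    rw [Nat.card_eq_fintype_card, Fintype.card_of_subtype (Finset.univ.filter fun z : K => z ∈ C ⊓ (P : Subgroup K))
      (fun z => by simp)]
    refine le_trans (le_of_eq ?_) (Finset.card_le_card (s := {1, d, (s : K)}) fun z hz => ?_)
    · rw [Finset.card_insert_of_notMem (by simp [hd1.symm, hsne.1.symm]),
        Finset.card_pair hsne.2.symm]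
    · simp only [Finset.mem_insert, Finset.mem_singleton] at hz
      simp only [Finset.mem_filter, Finset.mem_univ, true_and, mem_inf]
      rcases hz with rfl | rfl | rfl
      exacts [⟨C.one_mem, Subgroup.one_mem _⟩, ⟨hdC, hdP⟩, ⟨hsC, s.2⟩]
  have key : ∀ k ∈ Nat.divisors 16, 3 ≤ k → 4 ∣ k := by decide
  have h4 : 4 ∣ Nat.card C := (key _ (Nat.mem_divisors.2 ⟨hP ▸ card_dvd_of_le inf_le_right, by norm_num⟩) h3).trans
    (card_dvd_of_le inf_le_left)
  have h3' : 3 ∣ Nat.card C := ha ▸ C.orderOf_dvd_natCard haC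
  have := Nat.le_of_dvd Nat.card_pos (Nat.Coprime.mul_dvd_of_dvd_of_dvd (by norm_num : Nat.Coprime 4 3) h4 h3')
  omega

include hξ hξ1 in
theorem odd_core_trivial : pPrimeCore 2 K = ⊥ := by
  classical
  obtain ⟨d, hd1, hdd, hdc, huniq⟩ := exists_central ξ hξ hξ1
  by_contra hne
  obtain ⟨a, ha, ha1⟩ := (Subgroup.ne_bot_iff_exists_ne_one).1 hne |> fun ⟨x, hx⟩ => (⟨x.1, x.2, fun h => hx (Subtype.ext h)⟩ : ∃ a, a ∈ pPrimeCore 2 K ∧ a ≠ 1)
  have hcop := Lib.Hall.coprime_card_pPrimeCore (G := K) 2
  have hodd : Odd (Nat.card (pPrimeCore 2 K)) := Nat.coprime_two_right.1 hcop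
  have h3 : Nat.card (pPrimeCore 2 K) ≤ 3 := by
    have h := card_k ξ ▸ card_subgroup_dvd_card (pPrimeCore 2 K)
    have hc : Nat.Coprime (Nat.card (pPrimeCore 2 K)) 16 := Nat.Coprime.pow_right 4 hcop
    exact Nat.le_of_dvd (by norm_num) (hc.dvd_of_dvd_mul_right (show Nat.card (pPrimeCore 2 K) ∣ 3 * 16 by
      simpa using h))
  have had : a ≠ d := by
    intro h
    have h2 : orderOf a = 2 := orderOf_eq_prime (by rw [h, sq, hdd]) ha1
    have := h2 ▸ (pPrimeCore 2 K).orderOf_dvd_natCard ha
    exact absurd this (fun h => (Nat.not_even_iff_odd.2 hodd) (even_iff_two_dvd.2 h))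
  have h8 := huniq a ha1 had
  have horb := card_orbit a
  rw [card_k ξ] at horb
  have hsub := orbit_subset_normal (M := pPrimeCore 2 K) ha {1} (by simp) (by simpa using ha1)
    (by simp)
  simp only [Finset.card_singleton] at hsub
  nlinarith

include hξ hξ1 in
theorem core_unique [Fact (Nat.Prime 2)] :
    ∀ A B : Subgroup (pCore 2 K), Nat.card A = 2 → Nat.card B = 2 → A = B := by
  classical
  obtain ⟨d, hd1, hdd, hdc, huniq⟩ := exists_central ξ hξ hξ1
  haveI hTn : (pCore 2 K).Normal := by infer_instance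
  set T := pCore 2 K with hTdef
  have hT : IsPGroup 2 T := Hall.isPGroup_pCore 2
  have hle8 : Nat.card T ≤ 8 := by
    obtain ⟨k, hk⟩ := IsPGroup.iff_card.1 hT
    have hd : 2 ^ k ∣ 48 := by
      have h := card_k ξ ▸ card_subgroup_dvd_card T
      rwa [hk] at h
    have hk4 : k ≤ 4 := by
      by_contra h4
      have := (pow_dvd_pow 2 (show 5 ≤ k by omega)).trans hd
      norm_num at this
    rcases eq_or_lt_of_le hk4 with rfl | h
    · exfalso
      obtain ⟨P, hP⟩ := hT.exists_le_sylow
      have hPc : Nat.card (P : Subgroup K) = 16 :=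
        (SmallSimple.card_sylow_subgroup P (k := 4) (m := 3) (by rw [card_k ξ]; norm_num) (by norm_num)).trans
          (by norm_num)
      have heq : T = (P : Subgroup K) := eq_of_le_of_card_ge hP (by rw [hPc, hk]; norm_num)
      exact not_normal_sylow ξ hξ hξ1 P (heq ▸ hTn)
    · rw [hk]
      exact le_of_le_of_eq (Nat.pow_le_pow_right (by norm_num) (show k ≤ 3 by omega)) (by norm_num)
  have hdT : d ∈ T := by
    have hd2 : orderOf d = 2 := orderOf_eq_prime (by rw [sq, hdd]) hd1
    haveI : (zpowers d).Normal := ⟨fun x hx g => by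
      obtain ⟨j, rfl⟩ := hx
      exact ⟨j, by
        show d ^ j = g * d ^ j * g⁻¹
        rw [((show Commute g d from hdc g).zpow_right j).eq, mul_inv_cancel_right]⟩⟩
    exact Hall.le_pCore (IsPGroup.of_card (n := 1) (by rw [Nat.card_zpowers, hd2, pow_one]) :
      IsPGroup 2 (zpowers d)) (mem_zpowers d)
  have hinv : ∀ v ∈ T, v * v = 1 → v ≠ 1 → v = d := by
    intro v hv hvv hv1
    by_contra hvd
    have hbig : ∀ b ∈ T, b ≠ 1 → b ≠ d →
        Nat.card {z : K // ∃ n ∈ (⊤ : Subgroup K), n * b * n⁻¹ = z} = 6 ∧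
          Nat.card (centralizer ({b} : Set K)) = 8 ∧ Nat.card T = 8 := by
      intro b hb hb1 hbd
      have h8 := huniq b hb1 hbd
      have horb := card_orbit b
      rw [card_k ξ] at horb
      have hsub := orbit_subset_normal (M := T) hb {1, d}
        (by
          intro c hc g
          simp only [Finset.mem_insert, Finset.mem_singleton] at hc
          rcases hc with rfl | rfl
          · simp
          · rw [hdc g, mul_inv_cancel_right])
        (by simp [hb1, hbd]) (by
          intro c hc
          simp only [Finset.mem_insert, Finset.mem_singleton] at hc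
          rcases hc with rfl | rfl
          exacts [T.one_mem, hdT])
      rw [Finset.card_pair hd1.symm] at hsub
      refine ⟨?_, ?_, ?_⟩ <;> nlinarith
    obtain ⟨ho, hC8, hT8⟩ := hbig v hv hv1 hvd
    -- every element of the two-core is an involution
    have hexp : ∀ b ∈ T, b * b = 1 := by
      intro b hb
      by_cases hb1 : b = 1
      · rw [hb1, one_mul]
      by_cases hbd : b = d
      · rw [hbd, hdd]
      haveI := Fintype.ofFinite K
      have hsub : (Finset.univ.filter fun z => ∃ n ∈ (⊤ : Subgroup K), n * v * n⁻¹ = z) =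
          ((Finset.univ.filter fun z : K => z ∈ T).erase 1).erase d := by
        refine Finset.eq_of_subset_of_card_le (fun z hz => ?_) ?_
        · simp only [Finset.mem_filter, Finset.mem_univ, true_and] at hz
          obtain ⟨n, -, rfl⟩ := hz
          simp only [Finset.mem_erase, Finset.mem_filter, Finset.mem_univ, true_and]
          refine ⟨fun h => hvd ?_, fun h => hv1 (conj_eq_one_iff.1 h), hTn.conj_mem v hv n⟩
          calc v = n⁻¹ * (n * v * n⁻¹) * n := by group
            _ = d := by rw [h, hdc n⁻¹, mul_assoc, inv_mul_cancel, mul_one]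
        · rw [Finset.card_erase_of_mem (by simp [hd1, hdT]), Finset.card_erase_of_mem (by simp),
            ← Fintype.card_of_subtype (p := fun z => z ∈ T) _ (fun z => by simp),
            ← Fintype.card_of_subtype (p := fun z => ∃ n ∈ (⊤ : Subgroup K), n * v * n⁻¹ = z) _ (fun z => by simp),
            ← Nat.card_eq_fintype_card, ← Nat.card_eq_fintype_card, ho]
          show Nat.card T - 1 - 1 ≤ 6
          omega
      have hbm : b ∈ (Finset.univ.filter fun z => ∃ n ∈ (⊤ : Subgroup K), n * v * n⁻¹ = z) := by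
        rw [hsub]; simp [hb1, hbd, hb]
      simp only [Finset.mem_filter, Finset.mem_univ, true_and] at hbm
      obtain ⟨n, -, rfl⟩ := hbm
      calc n * v * n⁻¹ * (n * v * n⁻¹) = n * (v * v) * n⁻¹ := by group
        _ = 1 := by rw [hvv, mul_one, mul_inv_cancel]
    have hcomm : ∀ b ∈ T, ∀ c ∈ T, b * c = c * b := by
      intro b hb c hc
      calc b * c = (b * c)⁻¹ := (inv_eq_of_mul_eq_one_right (hexp _ (T.mul_mem hb hc))).symm
        _ = c * b := by
          rw [mul_inv_rev, inv_eq_of_mul_eq_one_right (hexp b hb), inv_eq_of_mul_eq_one_right (hexp c hc)]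
    have hCT : ∀ b ∈ T, b ≠ 1 → b ≠ d → centralizer ({b} : Set K) = T := fun b hb hb1 hbd =>
      (eq_of_le_of_card_ge (fun c hc => mem_centralizer_singleton_iff.2 (hcomm c hc b hb))
        (by rw [(hbig b hb hb1 hbd).2.1, hT8])).symm
    obtain ⟨u, hu8, huT⟩ : ∃ u, Nat.card (centralizer ({u} : Set K)) = 8 ∧ u ∉ T := by
      by_contra hnone
      push Not at hnone
      have hle := Nat.card_le_card_of_injective
        (fun a : {a : K // Nat.card (centralizer ({a} : Set K)) = 8} => (⟨a.1, hnone a.1 a.2⟩ : T))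
        fun a b h => Subtype.ext (congrArg Subtype.val h :)
      rw [card_eights ξ hξ, hT8] at hle
      omega
    set C := centralizer ({u} : Set K) with hC
    have hinf : Nat.card ↥(T ⊓ C) ≤ 2 := by
      have hle : T ⊓ C ≤ zpowers d := by
        intro b hb
        by_cases hb1 : b = 1
        · rw [hb1]; exact one_mem _
        by_cases hbd : b = d
        · rw [hbd]; exact mem_zpowers d
        exact absurd (hCT b hb.1 hb1 hbd ▸ mem_centralizer_singleton_iff.2
          (mem_centralizer_singleton_iff.1 hb.2).symm) huT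
      have hd2 : orderOf d = 2 := orderOf_eq_prime (by rw [sq, hdd]) hd1
      have := Nat.le_of_dvd Nat.card_pos (card_dvd_of_le hle)
      rwa [Nat.card_zpowers, hd2] at this
    have hsup : IsPGroup 2 (C ⊔ T : Subgroup K) :=
      (IsPGroup.of_card (n := 3) (by rw [hu8]; norm_num) : IsPGroup 2 C).to_sup_of_normal_right hT
    obtain ⟨k, hk⟩ := IsPGroup.iff_card.1 hsup
    have hd : 2 ^ k ∣ 48 := by
      have h := card_k ξ ▸ card_subgroup_dvd_card (C ⊔ T : Subgroup K)
      rwa [hk] at h
    have hk4 : k ≤ 4 := by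
      by_contra h4
      have := (pow_dvd_pow 2 (show 5 ≤ k by omega)).trans hd
      norm_num at this
    have hle16 : Nat.card (C ⊔ T : Subgroup K) ≤ 16 := by
      rw [hk]
      exact le_of_le_of_eq (Nat.pow_le_pow_right (by norm_num) hk4) (by norm_num)
    have hr : T.relIndex (C ⊔ T) = T.relIndex C := relIndex_sup_right _ _
    have h1 := (T.subgroupOf (C ⊔ T)).card_mul_index
    rw [Nat.card_congr (subgroupOfEquivOfLe (le_sup_right : T ≤ C ⊔ T)).toEquiv, hT8] at h1
    have h2 := (T.subgroupOf C).card_mul_index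
    rw [← card_map_of_injective C.subtype_injective, subgroupOf_map_subtype, hu8] at h2
    have h3 : (T.subgroupOf (C ⊔ T)).index = (T.subgroupOf C).index := hr
    nlinarith
  intro A B hA hB
  have key : ∀ A : Subgroup T, Nat.card A = 2 → A = zpowers (⟨d, hdT⟩ : T) := by
    intro A hA
    obtain ⟨x, hx⟩ := exists_prime_orderOf_dvd_card' (G := A) 2 (by rw [hA])
    rw [← Subgroup.orderOf_coe] at hx
    have hxx : (x : T) * x = 1 := t_mul_t hx
    have hxd : (x : T) = ⟨d, hdT⟩ := Subtype.ext
      (hinv _ (x : T).2 (congrArg Subtype.val hxx) fun h => t_ne_one hx (Subtype.ext h))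
    rw [← hxd]
    exact (eq_of_le_of_card_ge (zpowers_le.2 x.2) (by rw [hA, Nat.card_zpowers, hx])).symm
  rw [key A hA, key B hB]

end Kgroup

/-- In a simple group of order 5616 a subgroup of order 48 with this commuting graph is `GL(2,3)`. -/
theorem nonempty_equiv_gl {H : Type u} [Group H] [Finite H] [IsSimpleGroup H] (hH : Nat.card H = 5616)
    (hnc : ¬ IsMulCommutative H) (K : Subgroup H) (ξ : K ≃ GL23)
    (hξ : ∀ a b : K, a * b = b * a ↔ ξ a * ξ b = ξ b * ξ a) (hξ1 : ξ 1 = 1) : Nonempty (K ≃* GL23) := by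
  classical
  haveI : Fact (Nat.Prime 2) := ⟨Nat.prime_two⟩
  haveI : Group.IsSolvable K := Lib.Char.isSolvable_of_card_eq_two_primes (p := 2) (q := 3) Nat.prime_two
    Nat.prime_three 48 K (card_k ξ) fun r hr hd => by
      rw [card_k ξ, show (48 : ℕ) = 2 ^ 4 * 3 by norm_num] at hd
      rcases (Nat.Prime.dvd_mul hr).1 hd with h | h
      · exact Or.inl ((Nat.prime_dvd_prime_iff_eq hr Nat.prime_two).1 (hr.dvd_of_dvd_pow h))
      · exact Or.inr ((Nat.prime_dvd_prime_iff_eq hr Nat.prime_three).1 h)
  rcases Lib.BinOct.core_structure (odd_core_trivial ξ hξ hξ1) (core_unique ξ hξ hξ1) with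
    ⟨P, hP⟩ | h | ⟨-, -, -, hq⟩
  · exact absurd hP (not_normal_sylow ξ hξ hξ1 P)
  · exact h
  exfalso
  obtain ⟨P⟩ : Nonempty (Sylow 2 K) := inferInstance
  obtain ⟨f⟩ := hq P
  set Q := (P : Subgroup K).map K.subtype with hQ
  have hQc : Nat.card Q = 16 := by
    rw [hQ, card_map_of_injective K.subtype_injective, Nat.card_congr f.toEquiv, Nat.card_eq_fintype_card,
      QuaternionGroup.card]
  obtain ⟨S, hS⟩ := (IsPGroup.of_card (n := 4) hQc : IsPGroup 2 Q).exists_le_sylow
  have hSc : Nat.card (S : Subgroup H) = 16 :=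
    (SmallSimple.card_sylow_subgroup S (k := 4) (m := 351) (by rw [hH]; norm_num) (by norm_num)).trans
      (by norm_num)
  have hSQ : (S : Subgroup H) = Q := (eq_of_le_of_card_ge hS (by rw [hSc, hQc])).symm
  let g : (S : Subgroup H) ≃* QuaternionGroup (2 ^ (0 + 2)) :=
    (MulEquiv.subgroupCongr hSQ).trans (((P : Subgroup K).equivMapOfInjective _ K.subtype_injective).symm.trans f)
  have hc := Lib.Involution.quaternion_center_card S 0 g fun N hN hodd => by
    rcases IsSimpleGroup.eq_bot_or_eq_top_of_normal N hN with h | h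
    · exact h
    · rw [h, card_top, hH] at hodd
      exact absurd hodd (by decide)
  rcases IsSimpleGroup.eq_bot_or_eq_top_of_normal (center H) inferInstance with h | h
  · rw [h, card_bot] at hc; norm_num at hc
  · rw [h, card_top, hH] at hc; norm_num at hc

section Final

variable {H : Type u} [Group H] [Finite H] (F : H ≃ L33)
  (hF : ∀ a b : H, a * b = b * a ↔ F a * F b = F b * F a)

include hF in
theorem graph_map_one (hone : F 1 = 1) (x : L33) :
    Nat.card (centralizer ({F.symm x} : Set H)) = Nat.card (centralizer ({x} : Set L33)) :=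
  Nat.card_congr (Equiv.subtypeEquiv F fun b => by
    rw [mem_centralizer_singleton_iff, mem_centralizer_singleton_iff, hF, F.apply_symm_apply])

include hF in
/-- The commuting graph determines the group. -/
theorem iso_of_graph (hone : F 1 = 1) : Nonempty (H ≃* L33) := by
  haveI := l33_simple
  haveI : Fact (Nat.Prime 2) := ⟨Nat.prime_two⟩
  have hH : Nat.card H = 5616 := (Nat.card_congr F).trans l33_card.1
  obtain ⟨t, ht, ⟨et⟩⟩ := l33_involution
  obtain ⟨x, hx⟩ := exists_thirteen ht et l33_card.1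
  haveI : IsSimpleGroup H := isSimpleGroup_of_thirteen hH (x := F.symm x) (by rw [graph_map_one F hF hone, hx])
  set d := F.symm t with hd
  let ρ : centralizer ({d} : Set H) ≃ centralizer ({t} : Set L33) := Equiv.subtypeEquiv F fun b => by
    rw [mem_centralizer_singleton_iff, mem_centralizer_singleton_iff, hF, hd, F.apply_symm_apply]
  have hρ : ∀ a, (ρ a : L33) = F (a : H) := fun a => rfl
  let ξ : centralizer ({d} : Set H) ≃ GL23 := ρ.trans et.toEquiv
  have hξ : ∀ a b : centralizer ({d} : Set H), a * b = b * a ↔ ξ a * ξ b = ξ b * ξ a := fun a b => by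
    show _ ↔ et (ρ a) * et (ρ b) = et (ρ b) * et (ρ a)
    rw [← map_mul et, ← map_mul et, et.injective.eq_iff, Subtype.ext_iff, Subtype.ext_iff, Subgroup.coe_mul,
      Subgroup.coe_mul, Subgroup.coe_mul, Subgroup.coe_mul, hρ, hρ]
    exact hF a b
  have hρ1 : ρ 1 = 1 := Subtype.ext hone
  have hξ1 : ξ 1 = 1 := by show et (ρ 1) = 1; rw [hρ1, map_one]
  have hnc : ¬ IsMulCommutative H := fun h => by
    have hall : centralizer ({d} : Set H) = ⊤ :=
      eq_top_iff.2 fun g _ => mem_centralizer_singleton_iff.2 (h.is_comm.comm g d)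
    have h48 := card_k ξ
    rw [hall, card_top, hH] at h48
    norm_num at h48
  obtain ⟨e⟩ := nonempty_equiv_gl hH hnc _ ξ hξ hξ1
  -- the element `d` is an involution
  obtain ⟨d', hd1, hdd, hdc, huniq⟩ := exists_central ξ hξ hξ1
  have hd0 : d ≠ 1 := fun h => t_ne_one ht (by rw [← F.apply_symm_apply t, ← hd, h, hone])
  have hdd' : (d' : H) = d := by
    by_contra hne
    have h8 := huniq ⟨d, mem_centralizer_singleton_iff.2 rfl⟩ (fun h => hd0 (congrArg Subtype.val h :))
      (fun h => hne (congrArg Subtype.val h.symm :))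
    have hall : centralizer ({(⟨d, mem_centralizer_singleton_iff.2 rfl⟩ : centralizer ({d} : Set H))} :
        Set (centralizer ({d} : Set H))) = ⊤ :=
      eq_top_iff.2 fun g _ => mem_centralizer_singleton_iff.2 (Subtype.ext (mem_centralizer_singleton_iff.1 g.2))
    rw [hall, card_top, card_k ξ] at h8
    norm_num at h8
  have hord : orderOf d = 2 := orderOf_eq_prime (by
    rw [sq, ← hdd', ← Subgroup.coe_mul, hdd, Subgroup.coe_one]) hd0
  exact iso_l33 hH hord e

end Final

end Cfsg.Agent.Lib.GLTwoThree
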