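import Cfsg.Agent.Lib.GLTwoThree.Pairs
import Cfsg.Prelude.Def_Transfer

/-!
# Simplicity from a group generated by elements of odd order
-/

set_option autoImplicit false
set_option linter.unusedSectionVars false
set_option linter.style.haveILetI false
set_option synthInstance.maxSize 1024

namespace Cfsg.Agent.Lib.GLTwoThree

open Cfsg Subgroup

universe u

/-- A group generated by elements of odd order has no sign. -/
theorem sign_trivial {G : Type u} [Group G] [Finite G] (hO : Cfsg.pResidual 2 G = ⊤) (s : G →* ℤˣ) :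
    s.ker = ⊤ := by
  rw [eq_top_iff, ← hO]
  refine (closure_le _).2 fun g hg => ?_
  show s g = 1
  have h2 : s g ^ 2 = 1 := by rw [sq]; exact Int.units_mul_self _
  have hn : s g ^ orderOf g = 1 := by rw [← map_pow, pow_orderOf_eq_one, map_one]
  have := pow_gcd_eq_one.2 ⟨hn, h2⟩
  rw [Nat.Coprime.gcd_eq_one hg, pow_one] at this
  exact this

/-- Thompson's transfer lemma for groups without a sign. -/
theorem exists_conj_mem {G : Type u} [Group G] [Finite G] (hs : ∀ s : G →* ℤˣ, s.ker = ⊤) (C : Subgroup G)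
    (hC : ∃ m, C.index = 2 * m ∧ Odd m) {x : G} (hx : x ^ 2 = 1) : ∃ g : G, g * x * g⁻¹ ∈ C := by
  classical
  have := Fintype.ofFinite (G ⧸ C)
  let s : G →* ℤˣ := Equiv.Perm.sign.comp (MulAction.toPermHom G (G ⧸ C))
  by_contra hno
  push Not at hno
  set σ := MulAction.toPermHom G (G ⧸ C) x
  have hfix : Fintype.card (Function.fixedPoints σ) = 0 := by
    rw [Fintype.card_eq_zero_iff]
    refine ⟨fun ⟨q, hq⟩ => ?_⟩
    obtain ⟨g, rfl⟩ := QuotientGroup.mk_surjective q
    have h2 : ((x * g : G) : G ⧸ C) = g := hq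
    refine hno g⁻¹ ?_
    have h3 := QuotientGroup.eq.1 h2.symm
    rwa [inv_inv, mul_assoc]
  have h1 : Equiv.Perm.sign σ = 1 := MonoidHom.mem_ker.1 ((hs s).symm ▸ Subgroup.mem_top x : x ∈ s.ker)
  rw [Equiv.Perm.sign_of_pow_two_eq_one (by rw [← map_pow, hx, map_one]), hfix, Nat.sub_zero,
    ← Nat.card_eq_fintype_card, show Nat.card (G ⧸ C) = C.index from rfl] at h1
  obtain ⟨m, hm, hmo⟩ := hC
  rw [hm, Nat.mul_div_cancel_left _ (by norm_num : 0 < 2), hmo.neg_one_pow] at h1
  exact absurd h1 (by decide)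

theorem gl_no_normal_three : ∀ v : Quad, qdet v ≠ 0 → q3 v = true →
    ∃ k : Inv4, qmul k.1 v ≠ qmul v k.1 ∧ qmul k.1 v ≠ qmul (qmul v v) k.1 := by decide +kernel

/-- The involutions generate: every element is a product of at most four. -/
def invols : Finset Inv4 := Finset.univ.filter fun w => qmul w.1 w.1 = qone

theorem gl_involutions_generate : ∀ v : Inv4, ∃ a ∈ invols, ∃ b ∈ invols, ∃ c ∈ invols,
    qmul (qmul a.1 b.1) c.1 = v.1 ∨ ∃ d ∈ invols, qmul (qmul (qmul a.1 b.1) c.1) d.1 = v.1 := by decide +kernel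

theorem gl_central_involution : ∀ v : Quad, qdet v ≠ 0 → qmul v v = qone → v ≠ qone → v ≠ qneg →
    (Finset.univ.filter fun w : Inv4 => qmul w.1 v = qmul v w.1).card ≤ 8 := by decide +kernel

variable {G : Type u} [Group G] [Finite G] {t : G}
  (ht : orderOf t = 2) (e : centralizer ({t} : Set G) ≃* GL23)

include ht e in
theorem isConj_of_sign (hs : ∀ s : G →* ℤˣ, s.ker = ⊤) {x : G} (hx : x * x = 1) (hx1 : x ≠ 1) : IsConj x t := by
  obtain ⟨S, hSC, hS, htS, Q, hQS, hQ, hQu, -⟩ := exists_order_four_sylow ht e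
  have h32 := not_thirtytwo ht e
  have h16 : 16 ∣ Nat.card G := dvd_trans (by norm_num) (sixteen_dvd ht e)
  have hidx : ∃ m, Q.index = 2 * m ∧ Odd m := by
    obtain ⟨m, hm⟩ := h16
    refine ⟨m, ?_, ?_⟩
    · have h := Q.card_mul_index
      rw [hQ, hm] at h
      omega
    · rw [Nat.odd_iff]
      by_contra hodd
      obtain ⟨k, rfl⟩ : 2 ∣ m := by omega
      exact h32 ⟨k, by rw [hm]; ring⟩
  obtain ⟨g, hg⟩ := exists_conj_mem hs Q hidx (by rw [pow_two, hx] : x ^ 2 = 1)
  refine isConj_iff.2 ⟨g, hQu _ hg ?_ ?_⟩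
  · calc g * x * g⁻¹ * (g * x * g⁻¹) = g * (x * x) * g⁻¹ := by group
      _ = 1 := by rw [hx]; group
  · intro h
    exact hx1 (conj_eq_one_iff.1 h)

include ht e in
/-- A group generated by its elements of odd order with such an involution centraliser is simple. -/
theorem isSimpleGroup_of_residual (hO : Cfsg.pResidual 2 G = ⊤) : IsSimpleGroup G := by
  classical
  haveI : Fact (Nat.Prime 2) := ⟨Nat.prime_two⟩
  have hs := sign_trivial hO
  have htt := t_mul_t ht
  haveI : Nontrivial G := ⟨⟨t, 1, t_ne_one ht⟩⟩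
  constructor
  intro N hN
  by_cases hb : N = ⊥
  · exact Or.inl hb
  right
  have hinvol : ∀ {x : G}, x ∈ N → x * x = 1 → x ≠ 1 → t ∈ N := fun {x} hxN hx hx1 => by
    obtain ⟨g, hg⟩ := isConj_iff.1 (isConj_of_sign ht e hs hx hx1)
    exact hg ▸ hN.conj_mem x hxN g
  -- the involution is in every nontrivial normal subgroup
  have htN : t ∈ N := by
    by_cases h2 : 2 ∣ Nat.card N
    · obtain ⟨x, hx⟩ := exists_prime_orderOf_dvd_card' (G := N) 2 h2
      rw [← Subgroup.orderOf_coe] at hx
      exact hinvol x.2 (t_mul_t hx) (t_ne_one hx)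
    exfalso
    have hodd : Odd (Nat.card N) := Nat.odd_iff.2 (by omega)
    have hCt : ∀ n ∈ N, n * t = t * n → n = 1 := by
      intro n hn hnt
      by_contra hn1
      set M := N.subgroupOf (centralizer ({t} : Set G)) with hM
      have hMc : Nat.card M ∣ 48 := card_centralizer e ▸ card_subgroup_dvd_card M
      have hMN : Nat.card M ∣ Nat.card N := by
        rw [← Subgroup.card_map_of_injective (centralizer ({t} : Set G)).subtype_injective,
          Subgroup.subgroupOf_map_subtype]
        exact card_dvd_of_le inf_le_left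
      have hM3 : Nat.card M ∣ 3 := by
        have hcop : Nat.Coprime (Nat.card M) 16 :=
          Nat.Coprime.pow_right 4 (Nat.coprime_two_right.2 (hodd.of_dvd_nat hMN))
        exact hcop.dvd_of_dvd_mul_right (by simpa using hMc)
      set nC : centralizer ({t} : Set G) := ⟨n, mem_centralizer_singleton_iff.2 hnt⟩ with hnC
      have hnM : nC ∈ M := mem_subgroupOf.2 hn
      have ho : orderOf nC = 3 := by
        have h := hM3
        have hd := (M.orderOf_dvd_natCard hnM).trans h
        rcases (Nat.dvd_prime Nat.prime_three).1 hd with h1 | h1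
        · exact absurd (congrArg Subtype.val (orderOf_eq_one_iff.1 h1)) hn1
        · exact h1
      have hq : q3 (toQuad (e nC)) = true := by
        have hp : (e nC) ^ 3 = 1 := by
          have h := pow_orderOf_eq_one nC
          rw [ho] at h
          rw [← map_pow, h, map_one]
        have hne : e nC ≠ 1 := fun h => hn1 (congrArg Subtype.val ((MulEquiv.map_eq_one_iff e).1 h))
        simp only [q3, Bool.and_eq_true, beq_iff_eq, bne_iff_ne, ← toQuad_mul, Ne, ← toQuad_eq_one]
        exact ⟨by rw [← hp]; simp [pow_three, mul_assoc], hne⟩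
      obtain ⟨k, hk1, hk2⟩ := gl_no_normal_three _ (qdet_toQuad _) hq
      obtain ⟨g, hg⟩ := quadEquiv.surjective k
      obtain ⟨c, rfl⟩ := e.surjective g
      have hk : toQuad (e c) = k.1 := congrArg Subtype.val hg
      rw [← hk, ← toQuad_mul, ← toQuad_mul, Ne, toQuad_injective.eq_iff, ← map_mul, ← map_mul,
        e.injective.eq_iff] at hk1
      rw [← hk, ← toQuad_mul, ← toQuad_mul, ← toQuad_mul, Ne, toQuad_injective.eq_iff, ← map_mul, ← map_mul,
        ← map_mul, e.injective.eq_iff] at hk2
      have hMeq : zpowers nC = M := eq_of_le_of_card_ge (zpowers_le.2 hnM)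
        (by rw [Nat.card_zpowers, ho]; exact Nat.le_of_dvd (by norm_num) hM3)
      have hconj : c * nC * c⁻¹ ∈ zpowers nC := by
        rw [hMeq]
        exact mem_subgroupOf.2 (hN.conj_mem n hn c)
      obtain ⟨i, hi, he⟩ := (mem_zpowers_iff_mem_range_orderOf).1 hconj |> Finset.mem_image.1
      rw [ho, Finset.mem_range] at hi
      interval_cases i
      · rw [pow_zero, eq_comm, conj_eq_one_iff] at he
        exact hn1 (congrArg Subtype.val he)
      · rw [pow_one] at he
        exact hk1 (mul_inv_eq_iff_eq_mul.1 he.symm)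
      · rw [sq] at he
        exact hk2 (mul_inv_eq_iff_eq_mul.1 he.symm)
    have hfree : ∀ x : G, x * x = 1 → x ≠ 1 → ∀ n ∈ N, n * x = x * n → n = 1 := by
      intro x hx hx1 n hn hnx
      obtain ⟨g, hg⟩ := isConj_iff.1 (isConj_of_sign ht e hs hx hx1)
      refine conj_eq_one_iff.1 (hCt (g * n * g⁻¹) (hN.conj_mem n hn g) ?_)
      rw [← hg, show g * n * g⁻¹ * (g * x * g⁻¹) = g * (n * x) * g⁻¹ by group, hnx]
      group
    have hinv : ∀ x : G, x * x = 1 → x ≠ 1 → ∀ n ∈ N, x * n * x = n⁻¹ := by
      intro x hx hx1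
      have hxi : x⁻¹ = x := inv_eq_of_mul_eq_one_right hx
      have hmem : ∀ n ∈ N, x * n * x ∈ N := fun n hn => by
        have := hN.conj_mem n hn x
        rwa [hxi] at this
      have hinj : Function.Injective
          (fun n : N => (⟨(n : G)⁻¹ * (x * n * x), N.mul_mem (N.inv_mem n.2) (hmem _ n.2)⟩ : N)) := by
        intro a b h
        have h' : (a : G)⁻¹ * (x * a * x) = (b : G)⁻¹ * (x * b * x) := congrArg Subtype.val h
        have h2 : (b : G) * (a : G)⁻¹ * x = x * ((b : G) * (a : G)⁻¹) := by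
          calc (b : G) * (a : G)⁻¹ * x = (b : G) * ((a : G)⁻¹ * (x * a * x)) * (x⁻¹ * (a : G)⁻¹) := by group
            _ = (b : G) * ((b : G)⁻¹ * (x * b * x)) * (x⁻¹ * (a : G)⁻¹) := by rw [h']
            _ = x * ((b : G) * (a : G)⁻¹) := by group
        exact Subtype.ext (mul_inv_eq_one.1 (hfree x hx hx1 _ (N.mul_mem b.2 (N.inv_mem a.2)) h2)).symm
      intro n hn
      obtain ⟨a, ha⟩ := (Finite.injective_iff_surjective.1 hinj) ⟨n, hn⟩
      have ha' : (a : G)⁻¹ * (x * a * x) = n := congrArg Subtype.val ha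
      rw [← ha', mul_inv_rev, inv_inv, mul_inv_rev, mul_inv_rev, hxi,
        show x * ((a : G)⁻¹ * (x * a * x)) * x = x * (a : G)⁻¹ * x * a * (x * x) by group, hx]
      group
    -- another involution in the centraliser
    obtain ⟨v, hv⟩ := quadEquiv.surjective ⟨(1, 0, 0, -1), by decide⟩
    set c := e.symm v with hc
    have hv' : toQuad v = (1, 0, 0, -1) := congrArg Subtype.val hv
    have hcc : c * c = 1 := by
      rw [hc, ← map_mul, show v * v = 1 from toQuad_injective (by rw [toQuad_mul, hv', toQuad_one]; decide), map_one]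
    have hc1 : (c : G) ≠ 1 := by
      intro h
      have : v = 1 := e.symm.injective (Subtype.ext (by rw [map_one]; exact h))
      rw [toQuad_eq_one, hv'] at this
      exact absurd this (by decide)
    have hct : (c : G) ≠ t := by
      intro h
      have : v = e (tC t) := e.symm.injective (Subtype.ext (by rw [MulEquiv.symm_apply_apply]; exact h))
      rw [e_tC ht e] at this
      have h' := congrArg toQuad this
      rw [hv', toQuad_zz] at h'
      exact absurd h' (by decide)
    have hcomm : (c : G) * t = t * (c : G) := mem_centralizer_singleton_iff.1 c.2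
    have hcG : (c : G) * c = 1 := congrArg Subtype.val hcc
    have htc : t * (c : G) * (t * c) = 1 := by
      rw [show t * (c : G) * (t * c) = t * ((c : G) * t) * c by group, hcomm,
        show t * (t * (c : G)) * c = t * t * ((c : G) * c) by group, htt, hcG, one_mul]
    have htc1 : t * (c : G) ≠ 1 := fun h => hct (mul_left_cancel (h.trans htt.symm))
    refine hb ((eq_bot_iff_forall N).2 fun n hn => ?_)
    refine hfree _ htc htc1 n hn ?_
    have h1 := hinv t htt (t_ne_one ht) n hn
    have h2 := hinv c hcG hc1 _ (N.inv_mem hn)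
    rw [inv_inv] at h2
    have h3 : (c : G) * (t * n * t) * c = n := by rw [h1, h2]
    calc n * (t * (c : G)) = (c : G) * (t * n * t) * c * (t * c) := by rw [h3]
      _ = (c : G) * t * n * (t * (c * t) * c) := by group
      _ = t * c * n := by
        rw [hcomm, show t * (t * (c : G)) * c = t * t * ((c : G) * c) by group, htt, hcG, one_mul, mul_one]
  -- the involutions, and their centralisers
  have hall : ∀ x : G, x * x = 1 → x ∈ N := fun x hx => by
    by_cases hx1 : x = 1
    · rw [hx1]; exact N.one_mem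
    · obtain ⟨g, hg⟩ := isConj_iff.1 (isConj_of_sign ht e hs hx hx1).symm
      exact hg ▸ hN.conj_mem t htN g
  have hC : centralizer ({t} : Set G) ≤ N := by
    intro g hg
    have hmem : ∀ a : Inv4, a ∈ invols → ((e.symm (quadEquiv.symm a) : centralizer ({t} : Set G)) : G) ∈ N := by
      intro a ha
      refine hall _ ?_
      have ha' : qmul a.1 a.1 = qone := (Finset.mem_filter.1 ha).2
      have hq : quadEquiv.symm a * quadEquiv.symm a = 1 := by
        apply toQuad_injective
        rw [toQuad_mul, show toQuad (quadEquiv.symm a) = a.1 from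
          congrArg Subtype.val (quadEquiv.apply_symm_apply a), ha', toQuad_one]
      rw [← Subgroup.coe_mul, ← map_mul, hq, map_one, Subgroup.coe_one]
    have hq : ∀ a : Inv4, toQuad (quadEquiv.symm a) = a.1 := fun a =>
      congrArg Subtype.val (quadEquiv.apply_symm_apply a)
    obtain ⟨a, ha, b, hb, c, hc, h | ⟨d, hd, h⟩⟩ := gl_involutions_generate (quadEquiv (e ⟨g, hg⟩))
    · have heq : e ⟨g, hg⟩ = quadEquiv.symm a * quadEquiv.symm b * quadEquiv.symm c :=
        toQuad_injective (by rw [toQuad_mul, toQuad_mul, hq, hq, hq, h]; rfl)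
      have : g = ((e.symm (e ⟨g, hg⟩) : centralizer ({t} : Set G)) : G) := by rw [e.symm_apply_apply]
      rw [this, heq, map_mul, map_mul, Subgroup.coe_mul, Subgroup.coe_mul]
      exact N.mul_mem (N.mul_mem (hmem a ha) (hmem b hb)) (hmem c hc)
    · have heq : e ⟨g, hg⟩ = quadEquiv.symm a * quadEquiv.symm b * quadEquiv.symm c * quadEquiv.symm d :=
        toQuad_injective (by rw [toQuad_mul, toQuad_mul, toQuad_mul, hq, hq, hq, hq, h]; rfl)
      have : g = ((e.symm (e ⟨g, hg⟩) : centralizer ({t} : Set G)) : G) := by rw [e.symm_apply_apply]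
      rw [this, heq, map_mul, map_mul, map_mul, Subgroup.coe_mul, Subgroup.coe_mul, Subgroup.coe_mul]
      exact N.mul_mem (N.mul_mem (N.mul_mem (hmem a ha) (hmem b hb)) (hmem c hc)) (hmem d hd)
  -- the Frattini argument at a Sylow subgroup
  obtain ⟨S, hSC, hS, htS, -⟩ := exists_order_four_sylow ht e
  have hSN : S ≤ N := hSC.trans hC
  have hSsub : Nat.card (S.subgroupOf N) = 16 := by rw [Nat.card_congr (subgroupOfEquivOfLe hSN).toEquiv, hS]
  obtain ⟨T, hT⟩ := (IsPGroup.of_card (n := 4) hSsub : IsPGroup 2 (S.subgroupOf N)).exists_le_sylow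
  have hTeq : (T : Subgroup N) = S.subgroupOf N := by
    refine (eq_of_le_of_card_ge hT ?_).symm
    rw [hSsub]
    obtain ⟨k, hk⟩ := IsPGroup.iff_card.1 T.isPGroup'
    have hd : 2 ^ k ∣ Nat.card G := hk ▸ (card_subgroup_dvd_card _).trans (card_subgroup_dvd_card N)
    have hk4 : k ≤ 4 := by
      by_contra h4
      exact not_thirtytwo ht e ((pow_dvd_pow 2 (show 5 ≤ k by omega)).trans hd)
    rw [hk]
    exact le_of_le_of_eq (Nat.pow_le_pow_right (by norm_num) hk4) (by norm_num)
  have hfr := Sylow.normalizer_sup_eq_top T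
  rw [hTeq, Subgroup.subgroupOf_map_subtype, inf_eq_left.2 hSN] at hfr
  rw [eq_top_iff, ← hfr]
  refine sup_le (le_trans ?_ hC) le_rfl
  intro g hg
  have hmem : g * t * g⁻¹ ∈ S := (mem_normalizer_iff.1 hg t).1 htS
  -- the only central involution of the Sylow subgroup
  set c : centralizer ({t} : Set G) := ⟨g * t * g⁻¹, hSC hmem⟩ with hcdef
  have hc2 : c * c = 1 := Subtype.ext (by
    show g * t * g⁻¹ * (g * t * g⁻¹) = 1
    rw [show g * t * g⁻¹ * (g * t * g⁻¹) = g * (t * t) * g⁻¹ by group, htt]; group)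
  by_cases hcz : e c = zz
  · rw [← e_tC ht e] at hcz
    have h' : g * t * g⁻¹ = t := congrArg Subtype.val (e.injective hcz)
    exact mem_centralizer_singleton_iff.2 (mul_inv_eq_iff_eq_mul.1 h')
  exfalso
  have hne1 : e c ≠ 1 := fun h => by
    have h' : g * t * g⁻¹ = 1 := congrArg Subtype.val ((MulEquiv.map_eq_one_iff e).1 h)
    exact t_ne_one ht (conj_eq_one_iff.1 h')
  have hle8 := gl_central_involution (toQuad (e c)) (qdet_toQuad _)
    (by rw [← toQuad_mul, ← map_mul, hc2, map_one, toQuad_one]) (fun h => hne1 (toQuad_eq_one.2 h))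
    (fun h => hcz (toQuad_injective (h.trans toQuad_zz.symm)))
  rw [← natCard_gl (fun w => qmul w (toQuad (e c)) = qmul (toQuad (e c)) w)] at hle8
  have hinj : Function.Injective (fun s : S => (⟨e ⟨s.1, hSC s.2⟩, by
      rw [← toQuad_mul, ← toQuad_mul, ← map_mul, ← map_mul]
      refine congrArg (fun r => toQuad (e r)) (Subtype.ext ?_)
      show (s : G) * (g * t * g⁻¹) = g * t * g⁻¹ * (s : G)
      have hb : g⁻¹ * s * g ∈ S := by
        have := (mem_normalizer_iff.1 (inv_mem hg) (s : G)).1 s.2
        rwa [inv_inv] at this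
      have h := mem_centralizer_singleton_iff.1 (hSC hb)
      calc (s : G) * (g * t * g⁻¹) = g * (g⁻¹ * s * g * t) * g⁻¹ := by group
        _ = g * (t * (g⁻¹ * s * g)) * g⁻¹ := by rw [h]
        _ = g * t * g⁻¹ * (s : G) := by group⟩ :
      {w : GL23 // qmul (toQuad w) (toQuad (e c)) = qmul (toQuad (e c)) (toQuad w)})) := fun a b h => by
    have := e.injective (congrArg Subtype.val h)
    exact Subtype.ext (congrArg (fun r : centralizer ({t} : Set G) => (r : G)) this)
  have := Nat.card_le_card_of_injective _ hinj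
  omega

end Cfsg.Agent.Lib.GLTwoThree
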